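import Cfsg.Agent.H773.Pw.Spor
import Cfsg.Agent.H724.IMTool
import Cfsg.Agent.H537.CopDefs

/-!
# S2454, sporadic rows: the criterion with a Sylow subgroup of prime order (helper521)

* `prime_cases` : a prime dividing a product of prime powers.
* `pw_of_sylow` : `p ∣ |N(⟨y⟩) : C(⟨y⟩)|` from the congruence of Sylow.
-/

set_option autoImplicit false

namespace Cfsg.Agent.H521.Pw

open Cfsg Subgroup Cfsg.Agent.H514.DP Cfsg.Agent.H773.Pw Cfsg.Agent.H724.IMTool Cfsg.Agent.H713 Cfsg.Agent.H713.Count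
open Cfsg.Agent.H665.NoPQ

universe v

/-- a prime divisor of a product of prime powers. -/
theorem prime_cases {p : ℕ} (hp : p.Prime) (L : List (ℕ × ℕ)) {n : ℕ} (hn : n = (L.map fun a => a.1 ^ a.2).prod)
    (hL : ∀ a ∈ L, a.1.Prime) (hd : p ∣ n) : p ∈ L.map Prod.fst := by
  subst hn
  induction L with
  | nil =>
    simp only [List.map_nil, List.prod_nil] at hd
    exact absurd (Nat.dvd_one.1 hd) hp.one_lt.ne'
  | cons a L ih =>
    rw [List.map_cons, List.prod_cons] at hd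
    rw [List.map_cons, List.mem_cons]
    rcases hp.dvd_mul.1 hd with h | h
    · exact Or.inl ((Nat.prime_dvd_prime_iff_eq hp (hL a (by simp))).1 (hp.dvd_of_dvd_pow h))
    · exact Or.inr (ih (fun b hb => hL b (List.mem_cons_of_mem _ hb)) h)

variable {K : Type v} [Group K] [Finite K] [IsSimpleGroup K]

/-- `y` of order `l ∥ |K|`, `|C(y)| ≤ c`, `p` divides `|N(⟨y⟩) : C(⟨y⟩)|`: all possible `e` with `e * (|C(y)| / l) ≡ |K| / l`. -/
theorem pw_of_sylow {n : ℕ} (hn : Nat.card K = n) (hna : ¬ ∀ a b : K, a * b = b * a) {p l D k m : ℕ} (hp : p.Prime)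
    (hl : l.Prime) (hd : l ∣ n) (hd2 : ¬ l ^ 2 ∣ n) (h0 : n ≠ 0)
    (hcc : ∀ y : K, orderOf y = l → Nat.card (centralizer ({y} : Set K)) ∣ l * m)
    (he : ∀ c ∈ m.divisors, ∀ k ∈ (l - 1).divisors, k * c % l = n / l % l → p ∣ k) (hm : 0 < m)
    (hD : MinDeg K D) (hk : 3 ≤ k) (hC : (l * m - 1) ^ k < D ^ (2 * k - 4)) (hN : 2 * k ≤ 70) : PW p 70 K := by
  classical
  have hf : Fact l.Prime := ⟨hl⟩
  have hG : (Nat.card K).factorization l = 1 := by
    rw [hn]
    refine le_antisymm ?_ ((hl.dvd_iff_one_le_factorization h0).1 hd)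
    by_contra hc
    push Not at hc
    exact hd2 ((hl.pow_dvd_iff_le_factorization h0).2 hc)
  obtain ⟨y, hy⟩ := exists_order hl (hn ▸ hd)
  have h1 := hcc y hy
  have h2 : l ∣ Nat.card (centralizer ({y} : Set K)) := by
    have h3 : y ∈ centralizer ({y} : Set K) := mem_centralizer_singleton_iff.2 rfl
    have := Subgroup.orderOf_dvd_natCard _ h3
    rwa [hy] at this
  obtain ⟨c, hc⟩ := h2
  have h3 : c ∣ m := by
    rw [hc] at h1
    exact Nat.dvd_of_mul_dvd_mul_left hl.pos h1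
  refine pw_of_norm hna hp hl hy ?_ hD (Nat.le_of_dvd (Nat.mul_pos hl.pos hm) h1) hk hC hN
  rw [relIndex_eq hy]
  refine he c (Nat.mem_divisors.2 ⟨h3, hm.ne'⟩) _ ?_ ?_
  · rw [Nat.mem_divisors]
    have hxp : y ^ l = 1 := by rw [← hy]; exact pow_orderOf_eq_one y
    exact ⟨fus_card_dvd hxp, by have := hl.one_lt; omega⟩
  · rw [← hn]
    exact card_fus_mul hG hy hc

/-- the same for self-centralizing Sylow subgroups. -/
theorem pw_of_sc {n : ℕ} (hn : Nat.card K = n) (hna : ¬ ∀ a b : K, a * b = b * a) {p l D k : ℕ} (hp : p.Prime)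
    (hl : l.Prime) (hd : l ∣ n) (hd2 : ¬ l ^ 2 ∣ n) (h0 : n ≠ 0) (hsc : H537.Cop.SC l K)
    (he : ∀ k ∈ (l - 1).divisors, k % l = n / l % l → p ∣ k)
    (hD : MinDeg K D) (hk : 3 ≤ k) (hC : (l - 1) ^ k < D ^ (2 * k - 4)) (hN : 2 * k ≤ 70) : PW p 70 K :=
  pw_of_sylow (m := 1) hn hna hp hl hd hd2 h0 (fun y hy => by rw [hsc y hy, mul_one]) (by simpa using he) one_pos hD hk
    (by rwa [mul_one]) hN

end Cfsg.Agent.H521.Pw
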